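import Cfsg.Agent.H219.PSq.Three
import Cfsg.Agent.H686.VO.PSLDZ
import Cfsg.Agent.H734.PSq.Plus
import Cfsg.Agent.H664.R1.PSLTwo

/-!
# Odd prime squares dividing a character degree: `PSL_n(q)` (team PSQ, row PSL, helper219)

`sq_psl` : a simple `PSL_n(q)` of order divisible by `p²`, `p` odd, has an irreducible character of degree divisible
by `p²`.
-/

set_option autoImplicit false
set_option linter.unusedSectionVars false

open Cfsg Matrix

namespace Cfsg.Agent.H219.PSq.Psl

open Cfsg.Agent.H33 Cfsg.Agent.H686.VO.PSL Cfsg.Agent.H665.NoPQ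

universe u v

/-- from defect zero -/
theorem im_of_hasDZ {G : Type u} [Group G] [Finite G] {p a : ℕ} [hp : Fact p.Prime] (h : HasDZ p G)
    (hd : p ^ a ∣ Nat.card G) : IM (p ^ a) G := by
  obtain ⟨χ, hχ⟩ := h
  refine ⟨χ, ?_⟩
  rw [hp.out.pow_dvd_iff_le_factorization (Cfsg.Agent.Blocks.Basic.charDegree_pos χ.2).ne', hχ]
  exact (hp.out.pow_dvd_iff_le_factorization Nat.card_pos.ne').1 hd

variable {F : Type v} [Field F] [Fintype F]

/-- the case of cross characteristic -/
theorem main {r p : ℕ} [Fact r.Prime] [CharP F r] [hp : Fact p.Prime] (hp2 : p ≠ 2) (hpr : p ≠ r) {n : ℕ}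
    (hn : 2 ≤ n) (hd : p ^ 2 ∣ Nat.card (ProjectiveSpecialLinearGroup (Fin n) F)) :
    IM (p ^ 2) (ProjectiveSpecialLinearGroup (Fin n) F) := by
  have hq2 : 2 ≤ Fintype.card F := Fintype.one_lt_card
  have hp3 : 3 ≤ p := by
    have := hp.out.two_le
    omega
  by_cases h1 : p ∣ Fintype.card F - 1
  · by_cases h2 : p ∣ n
    · -- `p ∣ q - 1`, `p ∣ n`
      have hn3 : 3 ≤ n := hp3.trans (Nat.le_of_dvd (by omega) h2)
      have h3 : p ∣ Fintype.card F ^ 2 - 1 := h1.trans (Cfsg.Agent.H113.PSL.Facts.sub_one_dvd 2)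
      rcases Nat.eq_or_lt_of_le hn3 with h4 | h4
      · subst h4
        obtain ⟨φ, hφ⟩ := Three.exists_three F
        refine ⟨φ, ?_⟩
        rw [hφ, pow_two]
        exact mul_dvd_mul h1 h3
      · obtain ⟨φ, hφ⟩ := Cfsg.Agent.H113.PSL.Facts.t1 (F := F) (n := n) (by omega)
          (Cfsg.Agent.H113.PSL.Main.hasCusp F n (by omega))
        refine ⟨φ, dvd_trans ?_ hφ⟩
        obtain ⟨k, rfl⟩ : ∃ k, n = k + 4 := ⟨n - 4, by omega⟩
        rw [show k + 4 - 2 = k + 2 by omega, Finset.prod_range_succ', Finset.prod_range_succ', mul_assoc]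
        refine Dvd.dvd.mul_left ?_ _
        rw [pow_two]
        exact mul_dvd_mul (h1.trans (Cfsg.Agent.H113.PSL.Facts.sub_one_dvd _)) h3
    · exact im_of_hasDZ (hasDZ_of_dvd (r := r) hpr hn h1 h2) hd
  · rcases Nat.eq_or_lt_of_le hn with h4 | h4
    · subst h4
      have h5 := pow_dvd (F := F) (r := r) (m := 0) hp.out hpr hd
      rw [zero_add, Finset.prod_range_one, zero_add] at h5
      have h6 : Fintype.card F ^ 2 - 1 = (Fintype.card F + 1) * (Fintype.card F - 1) := by
        have := Nat.sq_sub_sq (Fintype.card F) 1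
        simpa using this
      rw [h6] at h5
      have h7 : p ^ 2 ∣ Fintype.card F + 1 :=
        (Nat.Coprime.pow_left _ ((Nat.Prime.coprime_iff_not_dvd hp.out).2 h1)).dvd_of_dvd_mul_right h5
      have h8 : 9 ≤ Fintype.card F + 1 := by
        have := Nat.le_of_dvd (by omega) h7
        nlinarith
      have h9 : Fintype.card F + 1 ∈ charDegrees (ProjectiveSpecialLinearGroup (Fin 2) F) := by
        rcases Nat.even_or_odd (Fintype.card F) with he | ho
        · have h10 : ringChar F = 2 := by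
            rw [FiniteField.even_card_iff_char_two]
            exact Nat.even_iff.1 he
          have : CharP F 2 := h10 ▸ ringChar.charP F
          exact (Cfsg.Agent.H664.R1.PSLTwo.degrees_even (F := F) (by omega)).2.1
        · exact (Cfsg.Agent.H664.R1.PSLTwo.degrees_odd (F := F) ho (by omega)).2.1
      exact Cfsg.Agent.H664.R1.PSLTwo.im_of_mem h9 h7
    · exact im_of_hasDZ (hasDZ_of_not_dvd (r := r) hpr (by omega) h1) hd

/-- **Row PSL of team PSQ.** -/
theorem sq_psl {S : Type u} [Group S] [Finite S] (h : Cfsg.IsPSL S) (hs : IsSimpleGroup S) {p : ℕ}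
    [hp : Fact p.Prime] (hp2 : p ≠ 2) (hd : p ^ 2 ∣ Nat.card S) : Cfsg.Agent.H33.IM (p ^ 2) S := by
  classical
  obtain ⟨F, _, _, n, hn, h4, ⟨e⟩⟩ := h
  obtain ⟨r, hr⟩ := CharP.exists F
  have hrp : Fact r.Prime := ⟨CharP.char_is_prime F r⟩
  by_cases hpr : p = r
  · subst hpr
    exact Cfsg.Agent.H734.PSq.sq_char (Or.inl ⟨F, inferInstance, inferInstance, hr, n, hn, h4, ⟨e⟩⟩) hd
  · rw [Nat.card_congr e.toEquiv] at hd
    exact (main (r := r) hp2 hpr hn hd).of_equiv e

end Cfsg.Agent.H219.PSq.Psl
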