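import Cfsg.Agent.H113.PSL.Main
import Cfsg.Agent.H113.PSL.Hyper
import Cfsg.Agent.H727.CosetZero
import Mathlib.FieldTheory.Finite.GaloisField

/-!
# A cuspidal character of `PGL_3(q)` whose restriction to `PSL_3(q)` is irreducible (team PSQ, helper219)

`exists_three` : `PSL_3(q)` has an irreducible character of degree `(q - 1)(q² - 1)`.
-/

set_option autoImplicit false
set_option linter.unusedSectionVars false
set_option linter.style.haveILetI false

open Cfsg Matrix Polynomial
open scoped ComplexConjugate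

namespace Cfsg.Agent.H219.PSq.Three

open Cfsg.Agent.H53.HC Cfsg.Agent.Characters Cfsg.Agent.H139.Cusp Module
open Cfsg.Agent.H113.PSL

universe u v

/-- `ε + ε^q + ε^(q²) ≠ 0` for a primitive root of unity of order `q² + q + 1` -/
theorem sum_ne_zero {ε : ℂ} {q : ℕ} (hq : 2 ≤ q) (h : ∀ m : ℕ, ε ^ m = 1 → q ^ 2 + q + 1 ∣ m)
    (h1 : ε ^ (q ^ 2 + q + 1) = 1) : ε + ε ^ q + ε ^ (q ^ 2) ≠ 0 := by
  intro h0
  have hε0 : ε ≠ 0 := by
    rintro rfl
    rw [zero_pow (by omega)] at h1
    exact zero_ne_one h1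
  have hn : ‖ε‖ = 1 := Complex.norm_eq_one_of_pow_eq_one h1 (by omega)
  obtain ⟨a, ha⟩ : ∃ a : ℂ, a = ε ^ (q - 1) := ⟨_, rfl⟩
  obtain ⟨b, hb⟩ : ∃ b : ℂ, b = ε ^ (q ^ 2 - 1) := ⟨_, rfl⟩
  have hq2 : 1 ≤ q ^ 2 := Nat.one_le_pow _ _ (by omega)
  have e1 : ε ^ q = ε * a := by
    rw [ha, ← pow_succ']
    congr 1
    omega
  have e2 : ε ^ (q ^ 2) = ε * b := by
    rw [hb, ← pow_succ']
    congr 1
    omega
  have h2 : 1 + a + b = 0 := by
    rw [e1, e2] at h0
    have h3 : ε * (1 + a + b) = 0 := by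
      rw [← h0]
      ring
    exact (mul_eq_zero.1 h3).resolve_left hε0
  have hna : ‖a‖ = 1 := by rw [ha, norm_pow, hn, one_pow]
  have hnb : ‖b‖ = 1 := by rw [hb, norm_pow, hn, one_pow]
  have ha0 : a ≠ 0 := by
    intro h3
    rw [h3, norm_zero] at hna
    exact zero_ne_one hna
  have hb0 : b ≠ 0 := by
    intro h3
    rw [h3, norm_zero] at hnb
    exact zero_ne_one hnb
  have h3 : 1 + a⁻¹ + b⁻¹ = 0 := by
    rw [Complex.inv_eq_conj hna, Complex.inv_eq_conj hnb]
    have := congrArg conj h2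
    rw [map_add, map_add, map_one, map_zero] at this
    exact this
  have h4 : a * b + b + a = 0 := by
    have h5 : a * b * (1 + a⁻¹ + b⁻¹) = a * b + b + a := by
      field_simp
    rw [← h5, h3, mul_zero]
  have h6 : a ^ 2 + a + 1 = 0 := by
    have h7 : b = -1 - a := by linear_combination h2
    rw [h7] at h4
    linear_combination -h4
  have h8 : a ^ 3 = 1 := by linear_combination (a - 1) * h6
  rw [ha, ← pow_mul] at h8
  have h9 := Nat.le_of_dvd (by omega) (h _ h8)
  obtain ⟨c, rfl⟩ : ∃ c, q = c + 2 := ⟨q - 2, by omega⟩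
  have h10 : c + 2 - 1 = c + 1 := by omega
  rw [h10] at h9
  nlinarith [h9]

section elem

variable {F : Type u} [Field F] [Finite F] {L : Type v} [Field L] [Finite L] [Algebra F L]

theorem card_L (h3 : finrank F L = 3) : Nat.card L = Nat.card F ^ 3 := by
  have : FiniteDimensional F L := Module.finite_of_finrank_pos (by omega)
  rw [← h3]
  exact Module.natCard_eq_pow_finrank

/-- the minimal polynomial of a generator has degree three -/
theorem natDegree_minpoly {γ : Lˣ} (hγ : orderOf γ = Nat.card Lˣ) (h3 : finrank F L = 3) :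
    (minpoly F (γ : L)).natDegree = 3 := by
  have hq : 2 ≤ Nat.card F := Finite.one_lt_card
  have hcL : Nat.card Lˣ = Nat.card F ^ 3 - 1 := by rw [Nat.card_units, card_L h3]
  have h1 : (minpoly F (γ : L)).natDegree ∣ 3 := by
    rw [← pow_eq_self_iff (F := F) (γ : L) 3, ← card_L h3]
    have : Fintype L := Fintype.ofFinite L
    rw [Nat.card_eq_fintype_card]
    exact FiniteField.pow_card (γ : L)
  rcases (Nat.dvd_prime Nat.prime_three).1 h1 with h2 | h2
  · exfalso
    have h4 : (γ : L) ^ (Nat.card F ^ 1) = γ := (pow_eq_self_iff (F := F) (γ : L) 1).2 (by rw [h2])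
    rw [pow_one] at h4
    have h5 : γ ^ (Nat.card F - 1) = 1 := by
      apply Units.ext
      rw [Units.val_pow_eq_pow_val, Units.val_one]
      have h6 : (γ : L) ^ (Nat.card F - 1) * γ = 1 * γ := by
        rw [← pow_succ, one_mul]
        convert h4 using 2
        omega
      exact mul_right_cancel₀ γ.ne_zero h6
    have h7 := orderOf_dvd_of_pow_eq_one h5
    rw [hγ, hcL] at h7
    have h8 := Nat.le_of_dvd (by omega) h7
    have h9 : Nat.card F ^ 1 < Nat.card F ^ 3 := Nat.pow_lt_pow_right (by omega) (by omega)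
    rw [pow_one] at h9
    omega
  · exact h2

/-- multiplication by a unit of the extension -/
noncomputable def mulE (F : Type u) {L : Type v} [Field F] [Field L] [Algebra F L] (γ : Lˣ) : L ≃ₗ[F] L :=
  LinearMap.GeneralLinearGroup.generalLinearEquiv F L (Units.map ((Algebra.lmul F L : L →ₐ[F] _) : L →* _) γ)

theorem coe_mulE (γ : Lˣ) : ((mulE F γ : L ≃ₗ[F] L) : L →ₗ[F] L) = Algebra.lmul F L (γ : L) := by
  rfl

theorem charpoly_mulE {γ : Lˣ} (hγ : orderOf γ = Nat.card Lˣ) (h3 : finrank F L = 3) :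
    ((mulE F γ : L ≃ₗ[F] L) : L →ₗ[F] L).charpoly = minpoly F (γ : L) := by
  have : FiniteDimensional F L := Module.finite_of_finrank_pos (by omega)
  rw [coe_mulE]
  have h1 : minpoly F (Algebra.lmul F L (γ : L)) = minpoly F (γ : L) :=
    minpoly.algHom_eq (Algebra.lmul F L) Algebra.lmul_injective (γ : L)
  have h2 := LinearMap.minpoly_dvd_charpoly (Algebra.lmul F L (γ : L))
  rw [h1] at h2
  refine Polynomial.eq_of_monic_of_dvd_of_natDegree_le (minpoly.monic (integral_of_finite (F := F) (γ : L)))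
    (LinearMap.charpoly_monic _) h2 ?_
  rw [LinearMap.charpoly_natDegree, h3, natDegree_minpoly hγ h3]

theorem det_mulE (γ : Lˣ) : LinearEquiv.det (mulE F γ) = Units.map (Algebra.norm F (S := L)) γ := by
  apply Units.ext
  rw [LinearEquiv.coe_det, coe_mulE, Units.coe_map]
  rfl

theorem cusp_mulE {γ : Lˣ} (hγ : orderOf γ = Nat.card Lˣ) (h3 : finrank F L = 3) (θ : L →*₀ ℂ) :
    cusp L θ ((mulE F γ : L ≃ₗ[F] L) : L →ₗ[F] L) =
      θ γ + θ γ ^ Nat.card F + θ γ ^ (Nat.card F ^ 2) := by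
  have h1 := charpoly_mulE (F := F) hγ h3
  have h2 : Irreducible ((mulE F γ : L ≃ₗ[F] L) : L →ₗ[F] L).charpoly := by
    rw [h1]
    exact minpoly.irreducible (integral_of_finite (F := F) (γ : L))
  rw [cusp_of_irreducible L θ h2, h1, lb_minpoly, natDegree_minpoly hγ h3, h3, Finset.sum_range_succ,
    Finset.sum_range_succ, Finset.sum_range_one]
  simp only [map_pow, pow_zero, pow_one]
  ring

end elem

section restrict

variable {F : Type u} [Field F] [Fintype F]

/-- irreducibility of the restriction to `PSL_3(q)` -/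
theorem isIrr_restrict {χ' : ProjGenLinGroup (Fin 3) F → ℂ} (hχ' : IsIrrCharacter _ χ')
    {M : GL (Fin 3) F} (hM : ∀ c : Fˣ, ∃ k : ℕ, (GeneralLinearGroup.det M) ^ k = c)
    (h0 : χ' (ProjGenLinGroup.mk M) ≠ 0) :
    IsIrrCharacter (ProjectiveSpecialLinearGroup.toPGL (n := Fin 3) (R := F)).range (fun n => χ' n) := by
  classical
  have hfin : Finite (ProjGenLinGroup (Fin 3) F) := Finite.of_surjective _ ProjGenLinGroup.mk_surjective
  letI : Fintype (ProjGenLinGroup (Fin 3) F) := Fintype.ofFinite _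
  have hnorm := Pass.range_toPGL_normal (F := F) (n := 3)
  letI : Fintype (ProjectiveSpecialLinearGroup.toPGL (n := Fin 3) (R := F)).range := Fintype.ofFinite _
  by_contra hcon
  obtain ⟨x, hx⟩ := Cfsg.Agent.H727.CosetZero.exists_coset_zero
    (ProjectiveSpecialLinearGroup.toPGL (n := Fin 3) (R := F)).range hχ' hcon
  obtain ⟨X, rfl⟩ := ProjGenLinGroup.mk_surjective x
  have hch := Core.isIrr_isCharacter hχ'
  have key : ∀ (g : GL (Fin 3) F) (c : Fˣ), GeneralLinearGroup.det g * c ^ 3 = GeneralLinearGroup.det X →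
      χ' (ProjGenLinGroup.mk g) = 0 := by
    intro g c hgc
    let Y : GL (Fin 3) F := g * GeneralLinearGroup.scalar (Fin 3) c * X⁻¹
    have hY : GeneralLinearGroup.det Y = 1 := by
      have h1 : GeneralLinearGroup.det (GeneralLinearGroup.scalar (Fin 3) c) = c ^ 3 := by
        apply Units.ext
        rw [GeneralLinearGroup.val_det_apply, GeneralLinearGroup.coe_scalar, Matrix.scalar_apply,
          Matrix.det_diagonal]
        simp
      change GeneralLinearGroup.det (g * GeneralLinearGroup.scalar (Fin 3) c * X⁻¹) = 1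
      rw [map_mul, map_mul, map_inv, h1, hgc, mul_inv_cancel]
    let y : SpecialLinearGroup (Fin 3) F := ⟨(Y : Matrix _ _ F), by
      rw [← GeneralLinearGroup.val_det_apply, hY, Units.val_one]⟩
    have hy : SpecialLinearGroup.toGL y = Y := Units.ext rfl
    have h2 : ProjectiveSpecialLinearGroup.toPGL (y : ProjectiveSpecialLinearGroup (Fin 3) F) =
        ProjGenLinGroup.mk Y := (ProjectiveSpecialLinearGroup.toPGL_mk y).trans (by rw [hy])
    have h3 := hx ⟨ProjGenLinGroup.mk Y, ⟨_, h2⟩⟩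
    have h4 : ProjGenLinGroup.mk Y * ProjGenLinGroup.mk X = ProjGenLinGroup.mk g := by
      rw [← map_mul]
      change ProjGenLinGroup.mk (g * GeneralLinearGroup.scalar (Fin 3) c * X⁻¹ * X) = _
      rw [inv_mul_cancel_right, map_mul, ProjGenLinGroup.mk_scalar, mul_one]
    rw [← h4]
    exact h3
  obtain ⟨k, hk⟩ := hM (GeneralLinearGroup.det X)
  have hk3 : k = 3 * (k / 3) + k % 3 := (Nat.div_add_mod k 3).symm
  have hlt : k % 3 < 3 := Nat.mod_lt _ (by omega)
  have h1 : χ' 1 ≠ 0 := Core.isIrr_apply_one_ne_zero hχ'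
  generalize k / 3 = j at hk3
  generalize k % 3 = r at hk3 hlt
  subst hk3
  interval_cases r
  · apply h1
    rw [← map_one ProjGenLinGroup.mk]
    refine key 1 ((GeneralLinearGroup.det M) ^ j) ?_
    rw [← hk, map_one, one_mul, ← pow_mul, add_zero, mul_comm]
  · apply h0
    refine key M ((GeneralLinearGroup.det M) ^ j) ?_
    rw [← hk, ← pow_mul, pow_succ', mul_comm j 3]
  · apply h0
    have h2 : χ' (ProjGenLinGroup.mk M)⁻¹ = 0 := by
      rw [← map_inv]
      refine key M⁻¹ ((GeneralLinearGroup.det M) ^ (j + 1)) ?_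
      rw [← hk, ← pow_mul, map_inv, inv_mul_eq_iff_eq_mul, ← pow_succ']
      congr 1
      ring
    rw [Core.isCharacter_apply_inv hch] at h2
    exact (map_eq_zero conj).1 h2

end restrict

/-- **`PSL_3(q)` has an irreducible character of degree `(q - 1)(q² - 1)`.** -/
theorem exists_three (F : Type u) [Field F] [Fintype F] :
    ∃ φ : IrrCharacter (ProjectiveSpecialLinearGroup (Fin 3) F),
      charDegree (φ : ProjectiveSpecialLinearGroup (Fin 3) F → ℂ) =
        (Fintype.card F - 1) * (Fintype.card F ^ 2 - 1) := by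
  classical
  obtain ⟨p, hp⟩ := CharP.exists F
  have hpp : Fact p.Prime := ⟨CharP.char_is_prime F p⟩
  let L := FiniteField.Extension F p 3
  have hL : Module.finrank F L = 3 := FiniteField.finrank_extension F p 3
  have hcL := card_L hL
  set q := Nat.card F with hq
  have hq2 : 2 ≤ q := Finite.one_lt_card
  have hk : (q - 1) * (q ^ 2 + q + 1) = q ^ 3 - 1 := by
    obtain ⟨c, hc⟩ : ∃ c, q = c + 1 := ⟨q - 1, by omega⟩
    rw [hc, Nat.add_sub_cancel]
    symm
    rw [Nat.sub_eq_iff_eq_add (Nat.one_le_pow _ _ (by omega))]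
    ring
  obtain ⟨θ, h1, h2⟩ := Theta.exists_of_order (L := L) (k := q ^ 2 + q + 1) (by
    rw [hcL, ← hk]
    exact dvd_mul_left _ _)
  have h3 : ∀ a : F, a ≠ 0 → θ (algebraMap F L a) = 1 :=
    Theta.theta_algebraMap (k := q ^ 2 + q + 1) (by rw [hcL, ← hk]) h1
  have hreg : Regular F 3 θ := by
    intro i hi hi3
    obtain ⟨x, hx⟩ := Theta.theta_regular (k := q ^ 2 + q + 1) (q := q) (i := i) (θ := θ) (by omega) h2 (by
      intro h4
      have h5 : 0 < q ^ i - 1 := Nat.sub_pos_of_lt (Nat.one_lt_pow (by omega) (by omega))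
      have h6 := Nat.le_of_dvd h5 h4
      have h7 : q ^ i ≤ q ^ 2 := Nat.pow_le_pow_right (by omega) (by omega)
      omega)
    exact ⟨x, fun h => hx h.symm⟩
  obtain ⟨γ, hγ⟩ := IsCyclic.exists_ofOrder_eq_natCard (α := Lˣ)
  have hgen : ∀ x : Lˣ, ∃ k : ℕ, γ ^ k = x := by
    intro x
    have h4 : x ∈ Subgroup.zpowers γ := by
      have : Subgroup.zpowers γ = ⊤ := by
        apply Subgroup.eq_top_of_card_eq
        rw [Nat.card_zpowers, hγ]
      rw [this]
      trivial
    rw [← mem_powers_iff_mem_zpowers] at h4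
    exact h4
  have hε1 : θ γ ^ (q ^ 2 + q + 1) = 1 := h1 _ γ.ne_zero
  have hε : ∀ m : ℕ, θ γ ^ m = 1 → q ^ 2 + q + 1 ∣ m := by
    intro m hm
    apply h2
    intro x hx
    obtain ⟨k, hk⟩ := hgen (Units.mk0 x hx)
    have hx' : x = (γ : L) ^ k := by
      have := congrArg Units.val hk
      exact this.symm
    rw [hx', map_pow, ← pow_mul, mul_comm, pow_mul, hm, one_pow]
  -- the character
  have hirr : IsIrrCharacter (GL (Fin 3) F) (psi L θ) := psi_isIrr θ hL hreg
  have hsc : ∀ c : Fˣ, psi L θ (GeneralLinearGroup.scalar (Fin 3) c) = psi L θ (1 : GL (Fin 3) F) := by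
    intro c
    have h5 := psi_scalar θ hL c 1
    rw [mul_one, h3 (c : F) c.ne_zero, one_mul] at h5
    exact h5
  obtain ⟨χ', hχ', hcomp⟩ := Pass.exists_pgl hirr hsc
  -- the element
  let b : Basis (Fin 3) F L := finBasisOfFinrankEq F L hL
  let M : GL (Fin 3) F := glE b (mulE F γ)
  have hval : χ' (ProjGenLinGroup.mk M) ≠ 0 := by
    have h5 : χ' (ProjGenLinGroup.mk M) = psi L θ M := (congrFun hcomp M).symm
    rw [h5, psi_glE, cusp_mulE hγ hL]
    exact sum_ne_zero hq2 hε hε1
  have hdet : ∀ c : Fˣ, ∃ k : ℕ, (GeneralLinearGroup.det M) ^ k = c := by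
    intro c
    obtain ⟨x, hx⟩ := FiniteField.unitsMap_norm_surjective F L c
    obtain ⟨k, rfl⟩ := hgen x
    refine ⟨k, ?_⟩
    change (GeneralLinearGroup.det (glE b (mulE F γ))) ^ k = c
    rw [Hyper.det_glE, det_mulE, ← map_pow]
    exact hx
  have hres := isIrr_restrict hχ' hdet hval
  have hφ : IsIrrCharacter (ProjectiveSpecialLinearGroup (Fin 3) F)
      ((fun n : (ProjectiveSpecialLinearGroup.toPGL (n := Fin 3) (R := F)).range => χ' n) ∘
        (ProjectiveSpecialLinearGroup.toPGL (n := Fin 3) (R := F)).rangeRestrict) :=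
    Core.isIrr_comp _ (MonoidHom.rangeRestrict_surjective _) hres
  refine ⟨⟨_, hφ⟩, ?_⟩
  apply Blocks.Basic.charDegree_of_eq
  have h6 : χ' 1 = psi L θ (1 : GL (Fin 3) F) := by
    rw [congrFun hcomp 1, Function.comp_apply, map_one]
  change χ' ((ProjectiveSpecialLinearGroup.toPGL (n := Fin 3) (R := F)).rangeRestrict 1 :
    (ProjectiveSpecialLinearGroup.toPGL (n := Fin 3) (R := F)).range) = _
  rw [map_one]
  change χ' 1 = _
  rw [h6, psi_one L θ (by omega), degP, Finset.prod_range_succ, Finset.prod_range_one, Nat.card_eq_fintype_card]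
  simp

end Cfsg.Agent.H219.PSq.Three
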